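import Cfsg.Agent.H239.E8P.Core
import Cfsg.Agent.H238.E8.T0b
import Cfsg.Agent.H238.E8.Cent5
import Cfsg.Agent.H277.E83.HForm
import Cfsg.Agent.H576.E8L.Proj

/-!
# S5925, box F (P7): the element inverting `h = φ₁(Yd) φ₂(Yd)` (helper239)
-/

set_option autoImplicit false
set_option linter.unusedSectionVars false

namespace Cfsg.Agent.H239.E8P

open Cfsg.Lie Cfsg.Agent.ChevalleyStructure Cfsg.Agent.ChevalleyStructure.Elts
open Cfsg.Agent.H576.E8L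
open Cfsg.Agent.H540.E8C (KK)
open Matrix

/-- **Box F**: an involution inverting `h` acts on the two copies of `sl₅` as `A ↦ -q⁻¹ Aᵀ q` with symmetric `q` -/
theorem p7 {w : KKˣ} (h5 : w ^ 5 = 1) (hw : w ≠ 1) {T : ↥(chevE8.group KK)}
    (hT : T * YY w h5 * T⁻¹ = (YY w h5)⁻¹) (h2 : T * T = 1) :
    ∃ q0 q1 : Matrix (Fin 5) (Fin 5) KK, IsUnit q0.det ∧ IsUnit q1.det ∧ q0ᵀ = q0 ∧ q1ᵀ = q1 ∧
      ∀ A0 A1 : Matrix (Fin 5) (Fin 5) KK, A0.trace = 0 → A1.trace = 0 →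
        ((T : GL chevE8.Idx KK) : Matrix chevE8.Idx chevE8.Idx KK) *ᵥ io KK (A0, A1) =
          io KK (-(q0⁻¹ * A0ᵀ * q0), -(q1⁻¹ * A1ᵀ * q1)) := by
  obtain ⟨t0, ht0, hinv, d, hd, hact⟩ := Cfsg.Agent.H238.E8.B1
  have hYd := Cfsg.Agent.H277.E83.YY_diag (K := KK) h5
  have hYf := Cfsg.Agent.H277.E83.YY_form (K := KK) h5
  have hT' : (T : GL chevE8.Idx KK) * (YY w h5 : GL chevE8.Idx KK) * (T : GL chevE8.Idx KK)⁻¹ =
      (YY w h5 : GL chevE8.Idx KK)⁻¹ := congrArg Subtype.val hT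
  have h2' : (T : GL chevE8.Idx KK) * (T : GL chevE8.Idx KK) = 1 := congrArg Subtype.val h2
  obtain ⟨Y, hY⟩ : ∃ Y : GL chevE8.Idx KK, Y = (YY w h5 : GL chevE8.Idx KK) := ⟨_, rfl⟩
  rw [← hY] at hYd hYf hT'
  have h1 := hinv Y⁻¹ (inv_mem hYd)
  rw [inv_inv] at h1
  have e1 : t0⁻¹ * Y = Y⁻¹ * t0⁻¹ := by
    rw [inv_mul_eq_iff_eq_mul, ← mul_assoc, h1, mul_inv_cancel_right]
  have e2 : (T : GL chevE8.Idx KK) * Y⁻¹ = Y * T := by
    have h3 : (T : GL chevE8.Idx KK) * Y = Y⁻¹ * T := mul_inv_eq_iff_eq_mul.1 hT'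
    rw [mul_inv_eq_iff_eq_mul, mul_assoc, h3, mul_inv_cancel_left]
  have hc : ((T : GL chevE8.Idx KK) * t0⁻¹) * Y = Y * ((T : GL chevE8.Idx KK) * t0⁻¹) := by
    rw [mul_assoc, e1, ← mul_assoc, e2, mul_assoc]
  obtain ⟨m, hm, s, hs, hms⟩ := Cfsg.Agent.H238.E8.B2 (w := (w : KK)) (by
    rw [← Units.val_pow_eq_pow_val, h5, Units.val_one]) (fun h => hw (Units.ext h)) hYd hYf
    (mul_mem T.2 (inv_mem ht0)) hc
  exact core hm hs hd hact (by rw [← hms, inv_mul_cancel_right]) h2'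

end Cfsg.Agent.H239.E8P
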