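import Cfsg.Agent.H239.E8P.Act

/-!
# S5925, box F (P7): the torus on the two copies of `sl₅` (helper239)
-/

set_option autoImplicit false
set_option linter.unusedSectionVars false

namespace Cfsg.Agent.H239.E8P

open Cfsg.Lie Cfsg.Agent.ChevalleyStructure Cfsg.Agent.ChevalleyStructure.Elts
  Cfsg.Agent.ChevalleyStructure.XColumns Cfsg.Agent.ChevalleyStructure.Strings
open Cfsg.Agent.H610.ChevRegular
open Matrix

universe u

variable {K : Type u} [Field K]

/-- multiplicative functions on the pairs `i ≠ j` -/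
theorem exists_d (γ : Fin 5 → Fin 5 → K) (hne : ∀ i j, i ≠ j → γ i j ≠ 0)
    (hmul : ∀ i j l, i ≠ j → j ≠ l → i ≠ l → γ i j * γ j l = γ i l) :
    ∃ d : Fin 5 → K, (∀ i, d i ≠ 0) ∧ ∀ i j, i ≠ j → γ i j * d j = d i := by
  have h3 : ∀ i j : Fin 5, ∃ l : Fin 5, l ≠ i ∧ l ≠ j := by decide
  have hinv : ∀ i j, i ≠ j → γ i j * γ j i = 1 := by
    intro i j hij
    obtain ⟨l, hl, hl'⟩ := h3 i j
    have h1 := hmul j i l hij.symm hl.symm hl'.symm
    have h2 := hmul i j l hij hl'.symm hl.symm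
    rw [← h1, ← mul_assoc] at h2
    exact mul_right_cancel₀ (hne i l hl.symm) (by rw [h2, one_mul])
  refine ⟨fun i => if i = 0 then 1 else γ i 0, fun i => ?_, fun i j hij => ?_⟩
  · show (if i = 0 then 1 else γ i 0) ≠ 0
    split_ifs with h
    · exact one_ne_zero
    · exact hne i 0 h
  · show γ i j * (if j = 0 then 1 else γ j 0) = if i = 0 then 1 else γ i 0
    by_cases hj : j = 0
    · subst hj
      rw [if_pos rfl, mul_one, if_neg hij]
    · rw [if_neg hj]
      by_cases hi : i = 0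
      · subst hi
        rw [if_pos rfl]
        exact hinv 0 j hij
      · rw [if_neg hi]
        exact hmul i j 0 hij hj hi

set_option maxRecDepth 100000 in
theorem rt_tab : ∀ (c : Fin 2) (i j l : Fin 5), i ≠ j → j ≠ l → i ≠ l → ∀ m < 8,
    RootVec.rt chevE8 (RT c i l) m = RootVec.rt chevE8 (RT c i j) m + RootVec.rt chevE8 (RT c j l) m := by
  decide +kernel

theorem chi_mul {h : GL chevE8.Idx K} {χ : ℕ → K} (hχ : Chi hE h χ) (c : Fin 2) (i j l : Fin 5) (hij : i ≠ j)
    (hjl : j ≠ l) (hil : i ≠ l) : χ (RT c i j) * χ (RT c j l) = χ (RT c i l) := by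
  have h1 := hχ.prod _ (RT_lt c i j hij)
  have h2 := hχ.prod _ (RT_lt c j l hjl)
  have h3 := hχ.prod _ (RT_lt c i l hil)
  rw [h1, h2, h3, ← Finset.prod_mul_distrib]
  refine Finset.prod_congr rfl fun m hm => ?_
  rw [rt_tab c i j l hij hjl hil m (Finset.mem_range.1 hm), zpow_add₀ (hχ.ne _)]

/-- the torus acts by diagonal matrices -/
theorem acts_diag {h : GL chevE8.Idx K} (hh : h ∈ chevE8.diagonalSubgroup K) : ∃ P P', Acts h P P' := by
  obtain ⟨χ, hχ⟩ := exists_chi hE hh
  have hM := mono_diag hE hχ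
  choose d hd0 hd using fun c : Fin 2 => exists_d (fun i j => χ (RT c i j)) (fun i j _ => hχ.ne _)
    (fun i j l h1 h2 h3 => chi_mul hχ c i j l h1 h2 h3)
  refine ⟨fun c => Matrix.diagonal (d c), fun c => Matrix.diagonal fun i => (d c i)⁻¹, fun c => ?_, fun c => ?_,
    fun c A hA => ?_⟩
  · rw [Matrix.diagonal_mul_diagonal, ← Matrix.diagonal_one]
    congr 1
    funext i
    exact mul_inv_cancel₀ (hd0 c i)
  · rw [Matrix.diagonal_mul_diagonal, ← Matrix.diagonal_one]
    congr 1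
    funext i
    exact inv_mul_cancel₀ (hd0 c i)
  · have key : ∀ k l : Fin 5, Matrix.diagonal (d c) * E K k l * Matrix.diagonal (fun i => (d c i)⁻¹) =
        (d c k * (d c l)⁻¹) • E K k l := by
      intro k l
      ext a b
      rw [Matrix.mul_diagonal, Matrix.diagonal_mul, Matrix.smul_apply, smul_eq_mul, E_apply]
      split_ifs with hab
      · rw [hab.1, hab.2]
        ring
      · ring
    refine ext_tr0 (L1 := (Matrix.mulVecLin (h : Matrix chevE8.Idx chevE8.Idx K)) ∘ₗ io1 K c)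
      (L2 := io1 K c ∘ₗ (LinearMap.mulRight K (Matrix.diagonal fun i => (d c i)⁻¹) ∘ₗ
        LinearMap.mulLeft K (Matrix.diagonal (d c)))) (fun k l hkl => ?_) (fun k => ?_) A hA
    · show _ *ᵥ io1 K c (E K k l) = io1 K c (Matrix.diagonal (d c) * E K k l * Matrix.diagonal fun i => (d c i)⁻¹)
      rw [key, map_smul, io1_E _ hkl, EV, Matrix.mulVec_smul, hM.evm _ (RT_lt c k l hkl), smul_smul, smul_smul,
        mul_comm, ← hd c k l hkl, mul_assoc (χ _), mul_inv_cancel₀ (hd0 c l), mul_one]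
    · show _ *ᵥ io1 K c (HK K k) = io1 K c (Matrix.diagonal (d c) * HK K k * Matrix.diagonal fun i => (d c i)⁻¹)
      have h1 : Matrix.diagonal (d c) * HK K k * Matrix.diagonal (fun i => (d c i)⁻¹) = HK K k := by
        rw [HK, mul_sub, sub_mul, key, key, mul_inv_cancel₀ (hd0 c _), mul_inv_cancel₀ (hd0 c _), one_smul, one_smul]
      rw [h1, io1_H, HV, hM.corvm _ (RT_lt c _ _ (Fin.castSucc_lt_succ).ne)]

end Cfsg.Agent.H239.E8P
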